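import Cfsg.Agent.H696.PSq.Defs
import Cfsg.Agent.H529.PsqAlmE
import Cfsg.Agent.H696.PSq.DefsE
import Cfsg.Agent.Lib.Cores

/-!
# S4844, PS-15: the main induction (helper696)
-/

set_option autoImplicit false

namespace Cfsg.Agent.H696.PSq

open Cfsg Subgroup
open scoped commutatorElement

universe u v

/-- Odd order theorem. -/
def OddSolv : Prop := ∀ (G : Type u) [Group G] [Finite G], Odd (Nat.card G) → Group.IsSolvable G

/-- PS-8 -/
def Jump (p : ℕ) : Prop := ∀ (G : Type u) [Group G] [Finite G], Hyp p G → pCore p G = ⊥ →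
  ∀ V : Subgroup G, V.Normal → (∀ N : Subgroup G, N.Normal → N ≤ V → N = ⊥ ∨ N = V) →
  ¬ p ∣ Nat.card V → ∀ U : Subgroup G, U.Normal → V ≤ U → ∀ k : ℕ, Nat.card U = p ^ k * Nat.card V → k ≤ 1

/-- PS-7 and PS-9 -/
def NoSit (p : ℕ) : Prop := ∀ (G : Type u) [Group G] [Finite G] (V : Subgroup G), Sit p V → False

/-- PS-14 -/
def ExcLift : Prop := ∀ (G : Type u) [Group G] [Finite G], Hyp 2 G → ∀ (V : Subgroup G) [V.Normal],
  (IsPGroup 2 V ∨ (Odd (Nat.card V) ∧ IsMulCommutative V)) → Exc (G ⧸ V) → Exc G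

theorem Hyp.quotient {p : ℕ} {G : Type u} [Group G] (h : Hyp p G) (N : Subgroup G) [N.Normal] : Hyp p (G ⧸ N) :=
  fun hN => h (H33.IM.of_quotient N hN)

/-- A minimal normal subgroup of odd order is abelian. -/
theorem comm_of_odd (hodd : OddSolv.{u}) {G : Type u} [Group G] [Finite G] {V : Subgroup G} (hVn : V.Normal)
    (hmin : ∀ N : Subgroup G, N.Normal → N ≤ V → N = ⊥ ∨ N = V) (hV : Odd (Nat.card V)) : IsMulCommutative V := by
  have hs : Group.IsSolvable V := hodd V hV
  by_cases hbot : V = ⊥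
  · subst hbot
    exact ⟨⟨fun a b => Subsingleton.elim _ _⟩⟩
  have hle : (commutator V).map V.subtype ≤ V := map_subtype_le _
  have hn : ((commutator V).map V.subtype).Normal := by
    have : (commutator V).Characteristic := inferInstance
    infer_instance
  rcases hmin _ hn hle with h | h
  · have h1 : commutator V = ⊥ := by
      rw [Subgroup.map_eq_bot_iff_of_injective _ V.subtype_injective] at h
      exact h
    refine ⟨⟨fun a b => ?_⟩⟩
    have h2 : ⁅a, b⁆ ∈ commutator V := by
      rw [_root_.commutator_def]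
      exact commutator_mem_commutator (mem_top a) (mem_top b)
    rw [h1, mem_bot, commutatorElement_eq_one_iff_mul_comm] at h2
    exact h2
  · exfalso
    have h1 : commutator V = ⊤ := by
      have h2 : ((commutator V).map V.subtype) = (⊤ : Subgroup V).map V.subtype := by
        rw [h, ← MonoidHom.range_eq_map, range_subtype]
      exact map_injective V.subtype_injective h2
    have : Nontrivial V := (nontrivial_iff_ne_bot V).2 hbot
    have h3 := hs.commutator_lt_top_of_nontrivial V
    exact h3.ne h1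

/-- PS-15: the main induction. -/
theorem main_of {p : ℕ} [hp : Fact p.Prime] (hIM : FactIM.{u} p) (hSq : FactSqE.{u} p) (hOut : FactOut.{u} p)
    (hodd : OddSolv.{u}) (hjump : Jump.{u} p) (hsit : NoSit.{u} p) (hlift : p = 2 → ExcLift.{u}) (n : ℕ) :
    ∀ (G : Type u) [Group G] [Finite G], Nat.card G ≤ n → Hyp p G →
      (Nat.card (G ⧸ pCore p G)).factorization p ≤ 2 ∨ (p = 2 ∧ Exc G) := by
  induction n with
  | zero =>
    intro G _ _ hn
    have := Nat.card_pos (α := G)
    omega
  | succ n ih =>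
    intro G _ _ hn hyp
    -- the induction hypothesis for proper quotients
    have hq : ∀ N : Subgroup G, ∀ _ : N.Normal, N ≠ ⊥ →
        (Nat.card ((G ⧸ N) ⧸ pCore p (G ⧸ N))).factorization p ≤ 2 ∨ (p = 2 ∧ Exc (G ⧸ N)) := by
      intro N hN hN1
      refine ih (G ⧸ N) ?_ (hyp.quotient N)
      have h1 : Nat.card G = Nat.card (G ⧸ N) * Nat.card N := card_eq_card_quotient_mul_card_subgroup N
      have h2 : 1 < Nat.card N := by
        have := Nat.card_pos (α := N)
        have h3 : Nat.card N ≠ 1 := fun h => hN1 (card_eq_one.1 h)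
        omega
      have h3 : 0 < Nat.card (G ⧸ N) := Nat.card_pos
      have h4 : Nat.card (G ⧸ N) < Nat.card G := by nlinarith
      omega
    by_cases hcore : pCore p G = ⊥
    swap
    · -- a nontrivial `p`-core
      rcases hq (pCore p G) (Lib.Cores.pCore_normal p) hcore with h | ⟨rfl, h⟩
      · left
        have h1 : pCore p (G ⧸ pCore p G) = ⊥ := Lib.Cores.pCore_quotient_pCore p
        have h2 : Nat.card ((G ⧸ pCore p G) ⧸ pCore p (G ⧸ pCore p G)) = Nat.card (G ⧸ pCore p G) := by
          have h3 := card_eq_card_quotient_mul_card_subgroup (pCore p (G ⧸ pCore p G))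
          rw [h1, card_bot, mul_one] at h3
          rw [h3, h1]
        rwa [h2] at h
      · right
        exact ⟨rfl, hlift rfl G hyp (pCore 2 G) (Or.inl (Lib.Cores.pCore_isPGroup 2)) h⟩
    have hcard : Nat.card (G ⧸ pCore p G) = Nat.card G := by
      have h3 := card_eq_card_quotient_mul_card_subgroup (pCore p G)
      rw [hcore, card_bot, mul_one] at h3
      rw [hcore, ← h3]
    rw [hcard]
    by_cases hV : ∀ V : Subgroup G, V.Normal → ¬ p ∣ Nat.card V → V = ⊥
    · -- the almost simple case
      rcases H529.PSq.almost_simpleE hIM hSq hOut hyp hcore hV with h | ⟨rfl, ⟨e⟩⟩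
      · exact Or.inl h
      · right
        refine ⟨rfl, ⊤, ⊥, inferInstance, inferInstance, inf_bot_eq _, sup_bot_eq _, ⟨topEquiv.trans e⟩, ?_⟩
        obtain ⟨Q⟩ : Nonempty (Sylow 2 (⊥ : Subgroup G)) := inferInstance
        have hb : (Q : Subgroup (⊥ : Subgroup G)) = ⊥ := Subsingleton.elim _ _
        refine ⟨Q, ?_, ?_⟩
        · rw [hb]
          infer_instance
        · exact ⟨⟨fun a b => Subsingleton.elim _ _⟩⟩
    -- a minimal normal `p'`-subgroup
    push Not at hV
    obtain ⟨V, ⟨hVn, hVp, hV1⟩, hVmin⟩ : ∃ V : Subgroup G, (V.Normal ∧ ¬ p ∣ Nat.card V ∧ V ≠ ⊥) ∧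
        ∀ N : Subgroup G, (N.Normal ∧ ¬ p ∣ Nat.card N ∧ N ≠ ⊥) → Nat.card V ≤ Nat.card N := by
      let s : Set (Subgroup G) := {N | N.Normal ∧ ¬ p ∣ Nat.card N ∧ N ≠ ⊥}
      have hs : s.Nonempty := by
        obtain ⟨V, h1, h2, h3⟩ := hV
        exact ⟨V, h1, h2, h3⟩
      obtain ⟨V, h1, h2⟩ := Set.exists_min_image s (fun N => Nat.card N) (Set.toFinite s) hs
      exact ⟨V, h1, h2⟩
    have hmin : ∀ N : Subgroup G, N.Normal → N ≤ V → N = ⊥ ∨ N = V := by
      intro N hN hNV
      by_cases hN1 : N = ⊥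
      · exact Or.inl hN1
      · right
        have h1 : ¬ p ∣ Nat.card N := fun h => hVp (h.trans (card_dvd_of_le hNV))
        exact eq_of_le_of_card_ge hNV (hVmin N ⟨hN, h1, hN1⟩)
    rcases hq V hVn hV1 with h | ⟨rfl, h⟩
    swap
    · -- the exception
      right
      refine ⟨rfl, hlift rfl G hyp V (Or.inr ?_) h⟩
      have ho : Odd (Nat.card V) := by
        rw [← Nat.not_even_iff_odd, even_iff_two_dvd]
        exact hVp
      exact ⟨ho, comm_of_odd hodd hVn hmin ho⟩
    -- `U / V` is the `p`-core of `G / V`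
    left
    let f := QuotientGroup.mk' V
    have hf : Function.Surjective f := QuotientGroup.mk'_surjective V
    set U : Subgroup G := (pCore p (G ⧸ V)).comap f with hU
    have hUn : U.Normal := (Lib.Cores.pCore_normal (G := G ⧸ V) p).comap f
    have hVU : V ≤ U := by
      intro x hx
      have h1 : f x = 1 := (QuotientGroup.eq_one_iff x).2 hx
      rw [hU, mem_comap, h1]
      exact one_mem _
    obtain ⟨k, hk⟩ := IsPGroup.iff_card.1 (Lib.Cores.pCore_isPGroup (G := G ⧸ V) p)
    have hcardcomap : ∀ K : Subgroup (G ⧸ V), Nat.card (K.comap f) = Nat.card K * Nat.card V := by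
      intro K
      have h1 : (K.comap f).index = K.index := index_comap_of_surjective K hf
      have h2 := card_mul_index (K.comap f)
      have h3 := card_mul_index K
      have h4 : Nat.card G = Nat.card (G ⧸ V) * Nat.card V := card_eq_card_quotient_mul_card_subgroup V
      rw [h1] at h2
      have h5 : K.index ≠ 0 := index_ne_zero_of_finite
      have h6 : Nat.card (K.comap f) * K.index = (Nat.card K * Nat.card V) * K.index := by
        rw [h2, h4, ← h3]
        ring
      exact Nat.eq_of_mul_eq_mul_right (Nat.pos_of_ne_zero h5) h6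
    have hUc : Nat.card U = p ^ k * Nat.card V := by
      rw [hU, hcardcomap, hk]
    have hk1 : k ≤ 1 := hjump G hyp hcore V hVn hmin hVp U hUn hVU k hUc
    -- the `p`-part of the order of `G`
    have hG1 : Nat.card G = Nat.card ((G ⧸ V) ⧸ pCore p (G ⧸ V)) * p ^ k * Nat.card V := by
      rw [card_eq_card_quotient_mul_card_subgroup V, card_eq_card_quotient_mul_card_subgroup (pCore p (G ⧸ V)), hk]
    have hG2 : (Nat.card G).factorization p =
        (Nat.card ((G ⧸ V) ⧸ pCore p (G ⧸ V))).factorization p + k := by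
      have h1 : Nat.card ((G ⧸ V) ⧸ pCore p (G ⧸ V)) ≠ 0 := Nat.card_pos.ne'
      have h2 : p ^ k ≠ 0 := pow_ne_zero _ hp.out.ne_zero
      have h3 : Nat.card V ≠ 0 := Nat.card_pos.ne'
      rw [hG1, Nat.factorization_mul (mul_ne_zero h1 h2) h3, Nat.factorization_mul h1 h2, Finsupp.add_apply,
        Finsupp.add_apply, hp.out.factorization_pow, Finsupp.single_eq_same,
        Nat.factorization_eq_zero_of_not_dvd hVp, add_zero]
    by_contra h3
    have hk' : k = 1 := by omega
    have h3' : (Nat.card G).factorization p = 3 := by omega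
    subst hk'
    refine hsit G V ⟨hVn, hyp, hcore, hV1, hmin, hVp, ⟨U, hUn, hVU, by rw [hUc, pow_one], ?_⟩, h3'⟩
    intro N hN hVN hNk
    obtain ⟨j, hj⟩ := hNk
    have h4 : N = (N.map f).comap f := by
      rw [comap_map_eq, QuotientGroup.ker_mk', sup_eq_left.2 hVN]
    rw [h4, hU]
    refine comap_mono (Lib.Cores.le_pCore (hN.map f hf) (IsPGroup.of_card (n := j) ?_))
    have h5 := hcardcomap (N.map f)
    rw [← h4, hj] at h5
    exact (Nat.eq_of_mul_eq_mul_right Nat.card_pos h5).symm

end Cfsg.Agent.H696.PSq
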