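import Cfsg.Agent.H696.PSq.Defs
import Cfsg.Agent.H955.PSq.Arith
import Cfsg.Agent.H117.PSq.Arith
import Cfsg.Agent.H244.PSq.Kappa
import Cfsg.Agent.H976.PSq.Struct

/-!
# S4844, PS-7: no partition of the dual module (helper696)

The equations of the partition are contradictory.
-/

set_option autoImplicit false

namespace Cfsg.Agent.H696.PSq

open Cfsg Subgroup

universe u v

section

variable {p : ℕ} [hp : Fact p.Prime] {C : Type u} [Group C] [Finite C] {W : Type v} [CommGroup W]
  [MulDistribMulAction C W] {A P : Subgroup C}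

/-- The equations are contradictory if the number of Sylow subgroups is at most the product of the numbers for
the directions. -/
theorem Eqs.false_of_le (E : Eqs p W A P)
    (hn : Nat.card (Sylow p C) ≤ ∏ᶠ X : Dir p P A, cX p (X : Subgroup C)) : False := by
  classical
  have : Fintype (Pt p P A) := Fintype.ofFinite _
  have : Fintype (Dir p P A) := Fintype.ofFinite _
  have hι : Fintype.card (Pt p P A) = p ^ 2 := by rw [← Nat.card_eq_fintype_card]; exact E.cardPt
  have hκ : Fintype.card (Dir p P A) = p + 1 := by rw [← Nat.card_eq_fintype_card]; exact E.cardDir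
  have : Nonempty (Pt p P A) := by
    rw [← Fintype.card_pos_iff, hι]
    exact pow_pos hp.out.pos 2
  have : Nonempty (Dir p P A) := by
    rw [← Fintype.card_pos_iff, hκ]
    omega
  set rel : Dir p P A → Pt p P A → Pt p P A → Prop :=
    fun X a b => (b : Subgroup C) ⊓ X = (a : Subgroup C) ⊓ X with hrel
  have he : ∀ X, Equivalence (rel X) := fun X =>
    ⟨fun a => rfl, fun h => h.symm, fun h h' => h'.trans h⟩
  have hu : ∀ a b, a ≠ b → ∃! X, rel X a b := fun a b hab => E.rel b a (Ne.symm hab)
  have hL : ∀ X a, ∏ b with rel X a b, wt W (b : Subgroup C) =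
      1 + cX p (X : Subgroup C) * ∑ b with rel X a b, (wt W (b : Subgroup C) - 1) := by
    intro X a
    have h := E.line X a
    rw [finprod_eq_prod_of_fintype, finsum_eq_sum_of_fintype] at h
    rw [Finset.prod_filter, Finset.sum_filter]
    convert h
  have hT : ∏ b : Pt p P A, wt W (b : Subgroup C) =
      1 + Nat.card (Sylow p C) * ∑ b : Pt p P A, (wt W (b : Subgroup C) - 1) := by
    have h := E.total
    rwa [finprod_eq_prod_of_fintype, finsum_eq_sum_of_fintype] at h
  have hn' : Nat.card (Sylow p C) ≤ ∏ X : Dir p P A, cX p (X : Subgroup C) := by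
    rwa [finprod_eq_prod_of_fintype] at hn
  have hnc : ∀ (X : Dir p P A) (a : Pt p P A), ∃ b : Pt p P A, wt W (b : Subgroup C) ≠ 1 ∧ ¬ rel X a b :=
    fun X a => E.noncol X a
  by_cases h2 : p = 2
  · subst h2
    exact H117.PSq.arith_two (by rw [hι]; norm_num) hκ rel he hu _ E.wt_or (fun X => cX 2 (X : Subgroup C)) _ hL hT
      hn' hnc
  · have h3 : 3 ≤ p := by
      have := hp.out.two_le
      omega
    exact H955.PSq.arith_odd h3 hκ.le rel he hu _ E.wt_or (fun X => cX p (X : Subgroup C)) _ hL hT hn' hnc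

end

/-- PS-7: there is no partition. -/
theorem PartHyp.false {p : ℕ} [hp : Fact p.Prime] (hIM : FactIM.{u} p) (hSq : FactSq.{u} p) (hOut : FactOut.{u} p)
    {C : Type u} [Group C] [Finite C] {W : Type v} [CommGroup W] [MulDistribMulAction C W] {A : Subgroup C}
    (h : PartHyp p W A) (hyp : Hyp p C) (heqs : ∀ P : Sylow p C, Eqs p W A (P : Subgroup C))
    (h7 : p = 3 → ∀ P : Sylow p C, ∀ N : Subgroup C, N.Normal → (P : Subgroup C) ≤ N →
      ∀ f : N →* alternatingGroup (Fin 7), Function.Surjective f → ¬ 9 ∣ Nat.card f.ker → False) : False := by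
  obtain ⟨P⟩ : Nonempty (Sylow p C) := inferInstance
  have E := heqs P
  rcases H976.PSq.struct hIM hSq hOut hyp h.central h.cardA P E.comm E.exp h.three with
    ⟨N, H, hN, hPN, hH, hHN, hpH, X₀, hX₀⟩ | ⟨hp3, N, hN, hPN, f, hf, hk⟩
  · exact E.false_of_le (H244.PSq.kappa h.central h.cardA P E.comm E.exp h.three N H hPN hHN hpH X₀ hX₀)
  · exact h7 hp3 P N hN hPN f hf hk

end Cfsg.Agent.H696.PSq
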