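import Cfsg.Agent.H696.PSq.DefsE
import Cfsg.Agent.H696.PSq.Part
import Cfsg.Agent.H696.PSq.Main
import Cfsg.Agent.H907.PSq.AbPart

/-!
# S4844, PS-7: no situation (helper696)

Assembly of the pieces, each missing one is a hypothesis.
-/

set_option autoImplicit false

namespace Cfsg.Agent.H696.PSq

open Cfsg Subgroup

universe u v

/-- PS-2 -/
def EqsP (p : ℕ) : Prop := ∀ (C : Type u) [Group C] [Finite C] (W : Type u) [CommGroup W] [Finite W]
  [MulDistribMulAction C W] (A : Subgroup C), PartHyp p W A → ∀ P : Sylow p C, Eqs p W A (P : Subgroup C)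

/-- PS-5 -/
def Seven3 : Prop := ∀ (C : Type u) [Group C] [Finite C] (W : Type u) [CommGroup W] [Finite W]
  [MulDistribMulAction C W] (A : Subgroup C) [Fact (Nat.Prime 3)], PartHyp 3 W A → ∀ P : Sylow 3 C,
  Eqs 3 W A (P : Subgroup C) → ∀ N : Subgroup C, N.Normal → (P : Subgroup C) ≤ N →
  ∀ f : N →* alternatingGroup (Fin 7), Function.Surjective f → ¬ 9 ∣ Nat.card f.ker → False

/-- The parity argument -/
def EvenCase (p : ℕ) : Prop := ∀ (C : Type u) [Group C] [Finite C] (W : Type u) [CommGroup W] [Finite W]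
  [MulDistribMulAction C W] (A : Subgroup C), PartHyp p W A → ∀ P : Sylow p C,
  Eqs p W A (P : Subgroup C) → ∀ N : Subgroup C, N.Normal → (P : Subgroup C) ≤ N →
  ∀ (S : Type u) [Group S] [Finite S] (f : N →* S), Function.Surjective f → ¬ p ^ 2 ∣ Nat.card f.ker →
  center S = ⊥ → EvenC p S → False

/-- PS-4 -/
def StructP (p : ℕ) : Prop := ∀ (C : Type u) [Group C] [Finite C], Hyp p C → ∀ A : Subgroup C, A ≤ center C →
    Nat.card A = p → ∀ P : Sylow p C, IsMulCommutative (P : Subgroup C) → (∀ x ∈ (P : Subgroup C), x ^ p = 1) →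
    (Nat.card C).factorization p = 3 →
    (∃ N H : Subgroup C, N.Normal ∧ (P : Subgroup C) ≤ N ∧ H.Normal ∧ H ≤ N ∧ ¬ p ∣ Nat.card H ∧
      ∃ X₀ : Dir p (P : Subgroup C) A, ∀ g ∈ N, ∀ x ∈ (X₀ : Subgroup C), g * x * g⁻¹ ∈ H ⊔ (X₀ : Subgroup C)) ∨
    (p = 3 ∧ ∃ N : Subgroup C, N.Normal ∧ (P : Subgroup C) ≤ N ∧
      ∃ f : N →* alternatingGroup (Fin 7), Function.Surjective f ∧ ¬ 9 ∣ Nat.card f.ker) ∨
    (∃ N : Subgroup C, N.Normal ∧ (P : Subgroup C) ≤ N ∧ ∃ (S : Type u) (_ : Group S) (_ : Finite S) (f : N →* S),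
      Function.Surjective f ∧ ¬ p ^ 2 ∣ Nat.card f.ker ∧ center S = ⊥ ∧ EvenC p S)

/-- PS-9 -/
def NonabCase (p : ℕ) : Prop := ∀ (G : Type u) [Group G] [Finite G] (V : Subgroup G), Sit p V →
  ¬ IsMulCommutative V → False

/-- PS-7 -/
theorem noSit_of {p : ℕ} [hp : Fact p.Prime] (hIM : FactIM.{u} p) (hodd : OddSolv.{u}) (heqs : EqsP.{u} p)
    (h7 : p = 3 → Seven3.{u}) (hev : EvenCase.{u} p) (hstr : StructP.{u} p) (hna : p ≠ 2 → NonabCase.{u} p) :
    NoSit.{u} p := by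
  intro G _ _ V h
  by_cases hab : IsMulCommutative V
  · obtain ⟨C, A, W, iW, fW, aW, hP, hyp⟩ := H907.PSq.ab_part hIM h hab
    obtain ⟨P⟩ : Nonempty (Sylow p C) := inferInstance
    have E := heqs C W A hP P
    rcases hstr C hyp A hP.central hP.cardA P E.comm E.exp hP.three with
      ⟨N, H, hN, hPN, hH, hHN, hpH, X₀, hX₀⟩ | ⟨hp3, N, hN, hPN, f, hf, hk⟩ |
      ⟨N, hN, hPN, S, iS, fS, f, hf, hk, hz, hS⟩
    · exact E.false_of_le (H244.PSq.kappa hP.central hP.cardA P E.comm E.exp hP.three N H hPN hHN hpH X₀ hX₀)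
    · subst hp3
      exact h7 rfl C W A hP P E N hN hPN f hf hk
    · exact hev C W A hP P E N hN hPN S f hf hk hz hS
  · by_cases hp2 : p = 2
    · subst hp2
      have ho : Odd (Nat.card V) := by
        rw [← Nat.not_even_iff_odd, even_iff_two_dvd]
        exact h.cop
      exact hab (comm_of_odd hodd h.normal h.min ho)
    · exact hna hp2 G V h hab

end Cfsg.Agent.H696.PSq
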